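import Cfsg.Agent.UGen.Generic

/-!
Generation of `SU₃(5)` and `SU₃(8)` by two regular unipotent elements.
-/

set_option autoImplicit false

namespace CfsgLib.UGen

open Matrix Polynomial CfsgLib.UGeom

variable {F : Type*} [Field F] [Fintype F] {q : ℕ}

local notation "SU3" => Cfsg.SU 3 F q
local notation "mat" A:max => (((A : SU3) : Matrix.SpecialLinearGroup (Fin 3) F) : Matrix (Fin 3) (Fin 3) F)

theorem char_of_card (p k : ℕ) (hp : p.Prime) (hk : k ≠ 0) (h : Fintype.card F = p ^ k) : CharP F p := by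
  obtain ⟨r, hr⟩ := CharP.exists F
  obtain ⟨m, hr', hm⟩ := FiniteField.card F r
  have : r = p := by
    have h1 : r ∣ p ^ k := by rw [← h, hm]; exact dvd_pow_self r m.ne_zero
    exact (Nat.prime_dvd_prime_iff_eq hr' hp).1 (hr'.dvd_of_dvd_pow h1)
  exact this ▸ hr

theorem vec_congr {C : Conj F q} (R : Frame C) {x y z x' y' z' : F} (hx : x = x') (hy : y = y') (hz : z = z') :
    R.vec x y z = R.vec x' y' z' := by rw [hx, hy, hz]

theorem goodPair_five (C : Conj F q) (h5 : q = 5) :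
    GoodPair C := by
  obtain ⟨R⟩ := exists_frame C
  have hcard : Fintype.card F = 5 ^ 2 := by rw [C.card, h5]
  haveI : CharP F 5 := char_of_card 5 2 (by norm_num) two_ne_zero hcard
  have h50 : (5 : F) = 0 := by exact_mod_cast CharP.cast_eq_zero F 5
  obtain ⟨w, hw'⟩ : ∃ w : F, w ^ 2 = w + 3 := by
    obtain ⟨s, hs⟩ : IsSquare (3 : F) := by
      rw [FiniteField.isSquare_iff (by rw [ringChar.eq F 5]; decide) (by intro h; exact one_ne_zero (α := F) (by linear_combination 2 * h - h50))]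
      rw [hcard]
      norm_num
      linear_combination (106288 : F) * h50
    exact ⟨3 * (1 + s), by linear_combination -9 * hs + (6 + 3 * s) * h50⟩
  have hw : w ^ 2 - w - 3 = 0 := by linear_combination hw'
  have hsw : C.σ w = 1 + 4 * w := by
    rw [C.pow, h5]; linear_combination ((7) + (4) * w + (1) * w ^ 2 + (1) * w ^ 3) * hw + ((4) + (3) * w) * h50
  have hγ : C.σ (1 : F) = 1 := map_one _
  have hβ : (4 + w) + C.σ (4 + w) + (1 : F) * C.σ 1 = 0 := by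
    simp only [map_add, map_mul, map_one, map_ofNat, hsw]; linear_combination 0 * hw + ((2) + (1) * w) * h50
  have hδ : (2 : F) + C.σ 2 + (1 : F) * C.σ 1 = 0 := by
    simp only [map_one, map_ofNat]; linear_combination h50
  set U := R.up 1 (4 + w) hβ with hU
  set V := R.low 1 2 hδ with hV
  have hUm : U ∈ Subgroup.closure ({U, V} : Set SU3) := Subgroup.subset_closure (by simp)
  have hVm : V ∈ Subgroup.closure ({U, V} : Set SU3) := Subgroup.subset_closure (by simp)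
  have hSU : C.σ (1 : F) = 1 := map_one _
  have hSV : C.σ (1 : F) = 1 := map_one _
  have e0 : mat V *ᵥ R.vec (1) (0) (0) = R.vec (1) (1) (2) := by
    rw [hV, R.low_vec, hSV]
    refine vec_congr R ?_ ?_ ?_
    · ring
    · ring
    · ring
  have e1 : mat U *ᵥ R.vec (1) (1) (2) = R.vec (3 + 2 * w) (3) (2) := by
    rw [hU, R.up_vec, hSU]
    refine vec_congr R ?_ ?_ ?_
    · linear_combination 0 * hw + ((1)) * h50
    · ring
    · ring
  have e2 : mat V *ᵥ R.vec (3 + 2 * w) (3) (2) = R.vec (3 + 2 * w) (1 + 2 * w) (4 * w) := by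
    rw [hV, R.low_vec, hSV]
    refine vec_congr R ?_ ?_ ?_
    · ring
    · linear_combination 0 * hw + ((1)) * h50
    · linear_combination 0 * hw + ((1)) * h50
  have e3 : mat V *ᵥ R.vec (3 + 2 * w) (1 + 2 * w) (4 * w) = R.vec (3 + 2 * w) (4 + 4 * w) (w) := by
    rw [hV, R.low_vec, hSV]
    refine vec_congr R ?_ ?_ ?_
    · ring
    · ring
    · linear_combination 0 * hw + ((1) + (1) * w) * h50
  have e4 : mat V *ᵥ R.vec (3 + 2 * w) (4 + 4 * w) (w) = R.vec (3 + 2 * w) (2 + w) (2 + w) := by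
    rw [hV, R.low_vec, hSV]
    refine vec_congr R ?_ ?_ ?_
    · ring
    · linear_combination 0 * hw + ((1) + (1) * w) * h50
    · ring
  have e5 : mat U *ᵥ R.vec (3 + 2 * w) (2 + w) (2 + w) = R.vec (2 + 3 * w) (4 + 2 * w) (2 + w) := by
    rw [hU, R.up_vec, hSU]
    refine vec_congr R ?_ ?_ ?_
    · linear_combination ((1)) * hw + ((2) + (1) * w) * h50
    · ring
    · ring
  have e6 : mat U *ᵥ R.vec (2 + 3 * w) (4 + 2 * w) (2 + w) = R.vec (4 + 3 * w) (1 + 3 * w) (2 + w) := by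
    rw [hU, R.up_vec, hSU]
    refine vec_congr R ?_ ?_ ?_
    · linear_combination ((1)) * hw + ((1) + (1) * w) * h50
    · linear_combination 0 * hw + ((1)) * h50
    · ring
  have e7 : mat U *ᵥ R.vec (4 + 3 * w) (1 + 3 * w) (2 + w) = R.vec (4 + 2 * w) (3 + 4 * w) (2 + w) := by
    rw [hU, R.up_vec, hSU]
    refine vec_congr R ?_ ?_ ?_
    · linear_combination ((1)) * hw + ((2) + (1) * w) * h50
    · ring
    · ring
  have e8 : mat V *ᵥ R.vec (4 + 2 * w) (3 + 4 * w) (2 + w) = R.vec (4 + 2 * w) (2 + w) (2 + w) := by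
    rw [hV, R.low_vec, hSV]
    refine vec_congr R ?_ ?_ ?_
    · ring
    · linear_combination 0 * hw + ((1) + (1) * w) * h50
    · linear_combination 0 * hw + ((1)) * h50
  have e9 : mat V *ᵥ R.vec (4 + 2 * w) (2 + w) (2 + w) = R.vec (4 + 2 * w) (1 + 3 * w) (3 + 4 * w) := by
    rw [hV, R.low_vec, hSV]
    refine vec_congr R ?_ ?_ ?_
    · ring
    · linear_combination 0 * hw + ((1)) * h50
    · linear_combination 0 * hw + ((1)) * h50
  have e10 : mat V *ᵥ R.vec (4 + 2 * w) (1 + 3 * w) (3 + 4 * w) = R.vec (4 + 2 * w) (0) (0) := by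
    rw [hV, R.low_vec, hSV]
    refine vec_congr R ?_ ?_ ?_
    · ring
    · linear_combination 0 * hw + ((1) + (1) * w) * h50
    · linear_combination 0 * hw + ((2) + (1) * w) * h50
  have hbe : mat (V * V * V * U * U * U * V * V * V * U * V) *ᵥ R.vec 1 0 0 = R.vec (4 + 2 * w) (0) (0) := by
    simp only [mul_mulVec]
    rw [e0, e1, e2, e3, e4, e5, e6, e7, e8, e9, e10]
  have m0 : mat V *ᵥ R.vec (0) (1) (0) = R.vec (0) (1) (4) := by
    rw [hV, R.low_vec, hSV]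
    refine vec_congr R ?_ ?_ ?_
    · ring
    · ring
    · linear_combination 0 * hw + ((-1)) * h50
  have m1 : mat U *ᵥ R.vec (0) (1) (4) = R.vec (4 * w) (0) (4) := by
    rw [hU, R.up_vec, hSU]
    refine vec_congr R ?_ ?_ ?_
    · linear_combination 0 * hw + ((3)) * h50
    · linear_combination 0 * hw + ((1)) * h50
    · ring
  have m2 : mat V *ᵥ R.vec (4 * w) (0) (4) = R.vec (4 * w) (4 * w) (4 + 3 * w) := by
    rw [hV, R.low_vec, hSV]
    refine vec_congr R ?_ ?_ ?_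
    · ring
    · ring
    · linear_combination 0 * hw + ((1) * w) * h50
  have m3 : mat V *ᵥ R.vec (4 * w) (4 * w) (4 + 3 * w) = R.vec (4 * w) (3 * w) (4 + 2 * w) := by
    rw [hV, R.low_vec, hSV]
    refine vec_congr R ?_ ?_ ?_
    · ring
    · linear_combination 0 * hw + ((1) * w) * h50
    · linear_combination 0 * hw + ((1) * w) * h50
  have m4 : mat V *ᵥ R.vec (4 * w) (3 * w) (4 + 2 * w) = R.vec (4 * w) (2 * w) (4 + 2 * w) := by
    rw [hV, R.low_vec, hSV]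
    refine vec_congr R ?_ ?_ ?_
    · ring
    · linear_combination 0 * hw + ((1) * w) * h50
    · linear_combination 0 * hw + ((1) * w) * h50
  have m5 : mat U *ᵥ R.vec (4 * w) (2 * w) (4 + 2 * w) = R.vec (2 + w) (4 + 4 * w) (4 + 2 * w) := by
    rw [hU, R.up_vec, hSU]
    refine vec_congr R ?_ ?_ ?_
    · linear_combination ((2)) * hw + ((4) + (3) * w) * h50
    · ring
    · ring
  have m6 : mat U *ᵥ R.vec (2 + w) (4 + 4 * w) (4 + 2 * w) = R.vec (w) (3 + w) (4 + 2 * w) := by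
    rw [hU, R.up_vec, hSU]
    refine vec_congr R ?_ ?_ ?_
    · linear_combination ((2)) * hw + ((4) + (2) * w) * h50
    · linear_combination 0 * hw + ((1) + (1) * w) * h50
    · ring
  have m7 : mat U *ᵥ R.vec (w) (3 + w) (4 + 2 * w) = R.vec (4 + 4 * w) (2 + 3 * w) (4 + 2 * w) := by
    rw [hU, R.up_vec, hSU]
    refine vec_congr R ?_ ?_ ?_
    · linear_combination ((2)) * hw + ((3) + (2) * w) * h50
    · linear_combination 0 * hw + ((1)) * h50
    · ring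
  have m8 : mat V *ᵥ R.vec (4 + 4 * w) (2 + 3 * w) (4 + 2 * w) = R.vec (4 + 4 * w) (1 + 2 * w) (2 * w) := by
    rw [hV, R.low_vec, hSV]
    refine vec_congr R ?_ ?_ ?_
    · ring
    · linear_combination 0 * hw + ((1) + (1) * w) * h50
    · linear_combination 0 * hw + ((2) + (1) * w) * h50
  have m9 : mat V *ᵥ R.vec (4 + 4 * w) (1 + 2 * w) (2 * w) = R.vec (4 + 4 * w) (w) (2 + 3 * w) := by
    rw [hV, R.low_vec, hSV]
    refine vec_congr R ?_ ?_ ?_
    · ring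
    · linear_combination 0 * hw + ((1) + (1) * w) * h50
    · linear_combination 0 * hw + ((1) + (1) * w) * h50
  have m10 : mat V *ᵥ R.vec (4 + 4 * w) (w) (2 + 3 * w) = R.vec (4 + 4 * w) (4) (0) := by
    rw [hV, R.low_vec, hSV]
    refine vec_congr R ?_ ?_ ?_
    · ring
    · linear_combination 0 * hw + ((1) * w) * h50
    · linear_combination 0 * hw + ((2) + (2) * w) * h50
  have hbm : mat (V * V * V * U * U * U * V * V * V * U * V) *ᵥ R.vec 0 1 0 = R.vec (4 + 4 * w) (4) (0) := by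
    simp only [mul_mulVec]
    rw [m0, m1, m2, m3, m4, m5, m6, m7, m8, m9, m10]
  refine ⟨R, 4 + w, 1, 2, hβ, hγ, one_ne_zero, hδ, fun h => absurd h (by omega), ?_⟩
  refine R.generate (by omega) (4 + w) 1 2 hβ hγ one_ne_zero hδ (mul_mem (mul_mem (mul_mem (mul_mem (mul_mem (mul_mem (mul_mem (mul_mem (mul_mem (mul_mem hVm hVm) hVm) hUm) hUm) hUm) hVm) hVm) hVm) hUm) hVm) hbe hbm ?_
  intro T hT
  rcases subfield_card T with h | ⟨d, hd2, hd, hQ2, hpT⟩
  · exact h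
  exfalso
  set c : F := 4 + 2 * w with hcdef
  have hc : c ∈ T := by
    convert hT using 1
    simp only [hcdef, map_add, map_mul, map_ofNat, hsw]; linear_combination 0 * hw + ((-4) + (-6) * w) * h50
  rw [hcard] at hd
  have hle : Nat.card T ^ 2 ≤ 25 := (Nat.pow_le_pow_right (by omega) hd2).trans (le_of_eq (by rw [← hd]; norm_num))
  have hQ : Nat.card T = 5 := by
    have h1 : Nat.card T ≤ 5 := by nlinarith
    have h2 : Nat.card T ∣ 5 ^ 2 := hd ▸ dvd_pow_self _ (by omega)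
    interval_cases h : Nat.card T <;> revert h2 <;> decide
  have hc0 : c ≠ 0 := by intro h; rw [hcdef] at h; exact one_ne_zero (α := F) (by linear_combination ((3) + (4) * w) * h + ((-8)) * hw + ((-7) + (-6) * w) * h50)
  have := hpT c hc hc0
  rw [hQ, hcdef, show 5 - 1 = 4 from rfl] at this
  exact one_ne_zero (α := F) (by linear_combination ((2)) * this + ((-1152) + (-288) * w + (-32) * w ^ 2) * hw + ((-793) + (-608) * w) * h50)

theorem exists_root_eight [CharP F 2] (hcard : Fintype.card F = 2 ^ 6) : ∃ w : F, w ^ 6 = w + 1 := by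
  classical
  set f : F[X] := X ^ 6 + X + 1 with hf
  have hdeg : f.natDegree = 6 := by rw [hf]; compute_degree!
  have hdvd : f ∣ X ^ Fintype.card F - X := by
    rw [hcard, ← AdjoinRoot.mk_eq_zero, map_sub, map_pow, AdjoinRoot.mk_X]
    haveI : CharP (AdjoinRoot f) 2 := by
      refine charP_of_injective_ringHom (f := (AdjoinRoot.of f)) ?_ 2
      exact AdjoinRoot.of.injective_of_degree_ne_zero (by rw [degree_eq_natDegree (fun h => by simp [h] at hdeg), hdeg]; decide)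
    set x := AdjoinRoot.root f
    have h20 : (2 : AdjoinRoot f) = 0 := by exact_mod_cast CharP.cast_eq_zero (AdjoinRoot f) 2
    have hx : x ^ 6 + x + 1 = 0 := by
      have := AdjoinRoot.eval₂_root f
      rw [hf] at this
      simpa using this
    have h8 : x ^ 8 = x ^ 3 + x ^ 2 := by linear_combination ((1) * x ^ 2) * hx + ((-1) * x ^ 2 + (-1) * x ^ 3) * h20
    have h16 : x ^ 16 = x ^ 4 + x + 1 := by rw [show (16 : ℕ) = 8 * 2 from rfl, pow_mul, h8]; linear_combination ((1)) * hx + ((-1) + (-1) * x + (1) * x ^ 5) * h20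
    have h32 : x ^ 32 = x ^ 3 + 1 := by rw [show (32 : ℕ) = 16 * 2 from rfl, pow_mul, h16]; linear_combination ((1) * x ^ 2) * hx + ((1) * x + (-1) * x ^ 3 + (1) * x ^ 4 + (1) * x ^ 5) * h20
    rw [show (2 ^ 6 : ℕ) = 32 * 2 from rfl, pow_mul, h32]
    linear_combination ((1)) * hx + ((-1) * x + (1) * x ^ 3) * h20
  have hsp : ((X : F[X]) ^ Fintype.card F - X).Splits := by
    rw [Polynomial.splits_iff_card_roots, FiniteField.roots_X_pow_card_sub_X,
      FiniteField.X_pow_card_sub_X_natDegree_eq F Fintype.one_lt_card]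
    rfl
  have h0 : (X : F[X]) ^ Fintype.card F - X ≠ 0 := FiniteField.X_pow_card_sub_X_ne_zero F Fintype.one_lt_card
  obtain ⟨w, hw⟩ := (hsp.of_dvd h0 hdvd).exists_eval_eq_zero
    (by rw [degree_eq_natDegree (fun h => by simp [h] at hdeg), hdeg]; decide)
  refine ⟨w, ?_⟩
  rw [hf] at hw
  simp at hw
  have h20 : (2 : F) = 0 := by exact_mod_cast CharP.cast_eq_zero F 2
  linear_combination hw - (w + 1) * h20

theorem goodPair_eight (C : Conj F q) (h8 : q = 8) :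
    GoodPair C := by
  obtain ⟨R⟩ := exists_frame C
  have hcard : Fintype.card F = 2 ^ 6 := by rw [C.card, h8]; norm_num
  haveI : CharP F 2 := char_of_card 2 6 (by norm_num) (by norm_num) hcard
  have h20 : (2 : F) = 0 := by exact_mod_cast CharP.cast_eq_zero F 2
  obtain ⟨w, hw'⟩ := exists_root_eight hcard
  have hw : w ^ 6 + w + 1 = 0 := by linear_combination hw' + (w + 1) * h20
  have hsw : C.σ w = w ^ 2 + w ^ 3 := by
    rw [C.pow, h8]; linear_combination ((1) * w ^ 2) * hw + ((-1) * w ^ 2 + (-1) * w ^ 3) * h20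
  have hγ : C.σ (1 + w + w ^ 2 + w ^ 4) = 1 + w + w ^ 2 + w ^ 4 := by
    simp only [map_add, map_pow, map_one, hsw]; linear_combination ((-4) + (-1) * w + (1) * w ^ 2 + (4) * w ^ 3 + (6) * w ^ 4 + (4) * w ^ 5 + (1) * w ^ 6) * hw + ((2) + (2) * w + (-2) * w ^ 3 + (-5) * w ^ 4 + (-4) * w ^ 5) * h20
  have hγ0 : (1 + w + w ^ 2 + w ^ 4 : F) ≠ 0 := by intro h; exact one_ne_zero (α := F) (by linear_combination ((1) * w ^ 3 + (1) * w ^ 4) * h + ((-1) + (-1) * w + (-1) * w ^ 2) * hw + ((1) + (1) * w + (1) * w ^ 2 + (-1) * w ^ 4 + (-1) * w ^ 5) * h20)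
  have hβ : (w + w ^ 5) + C.σ (w + w ^ 5) + (1 : F) * C.σ 1 = 0 := by
    simp only [map_add, map_pow, map_one, hsw]; linear_combination ((-15) + (-20) * w + (-15) * w ^ 2 + (-6) * w ^ 3 + (5) * w ^ 5 + (10) * w ^ 6 + (10) * w ^ 7 + (5) * w ^ 8 + (1) * w ^ 9) * hw + ((8) + (18) * w + (18) * w ^ 2 + (11) * w ^ 3 + (3) * w ^ 4 + (-2) * w ^ 5) * h20
  have hδ : (1 + w ^ 3) + C.σ (1 + w ^ 3) + (1 + w + w ^ 2 + w ^ 4) * C.σ (1 + w + w ^ 2 + w ^ 4) = 0 := by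
    rw [hγ]; simp only [map_add, map_pow, map_one, hsw]; linear_combination ((3) + (3) * w + (4) * w ^ 2 + (1) * w ^ 3) * hw + ((-2) * w + (-2) * w ^ 2 + (-1) * w ^ 3 + (1) * w ^ 4 + (1) * w ^ 5) * h20
  set U := R.up 1 (w + w ^ 5) hβ with hU
  set V := R.low (1 + w + w ^ 2 + w ^ 4) (1 + w ^ 3) hδ with hV
  have hUm : U ∈ Subgroup.closure ({U, V} : Set SU3) := Subgroup.subset_closure (by simp)
  have hVm : V ∈ Subgroup.closure ({U, V} : Set SU3) := Subgroup.subset_closure (by simp)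
  have hSU : C.σ (1 : F) = 1 := map_one _
  have hSV := hγ
  have e0 : mat V *ᵥ R.vec (1) (0) (0) = R.vec (1) (1 + w + w ^ 2 + w ^ 4) (1 + w ^ 3) := by
    rw [hV, R.low_vec, hSV]
    refine vec_congr R ?_ ?_ ?_
    · ring
    · ring
    · ring
  have e1 : mat U *ᵥ R.vec (1) (1 + w + w ^ 2 + w ^ 4) (1 + w ^ 3) = R.vec (w ^ 3 + w ^ 5) (w + w ^ 2 + w ^ 3 + w ^ 4) (1 + w ^ 3) := by
    rw [hU, R.up_vec, hSU]
    refine vec_congr R ?_ ?_ ?_
    · linear_combination ((1) * w ^ 2) * hw + ((-1) * w ^ 2 + (-1) * w ^ 3) * h20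
    · linear_combination 0 * hw + ((1)) * h20
    · ring
  have e2 : mat U *ᵥ R.vec (w ^ 3 + w ^ 5) (w + w ^ 2 + w ^ 3 + w ^ 4) (1 + w ^ 3) = R.vec (w ^ 3) (1 + w + w ^ 2 + w ^ 4) (1 + w ^ 3) := by
    rw [hU, R.up_vec, hSU]
    refine vec_congr R ?_ ?_ ?_
    · linear_combination ((1) * w ^ 2) * hw + ((-1) * w ^ 2 + (-1) * w ^ 3 + (1) * w ^ 5) * h20
    · linear_combination 0 * hw + ((1) * w ^ 3) * h20
    · ring
  have e3 : mat V *ᵥ R.vec (w ^ 3) (1 + w + w ^ 2 + w ^ 4) (1 + w ^ 3) = R.vec (w ^ 3) (1 + w ^ 3 + w ^ 5) (1 + w + w ^ 3 + w ^ 4) := by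
    rw [hV, R.low_vec, hSV]
    refine vec_congr R ?_ ?_ ?_
    · ring
    · linear_combination ((1) * w) * hw + ((1) * w ^ 4) * h20
    · linear_combination ((-1) + (-1) * w ^ 2) * hw + ((-1) * w + (-1) * w ^ 2 + (-2) * w ^ 4 + (-1) * w ^ 5) * h20
  have e4 : mat V *ᵥ R.vec (w ^ 3) (1 + w ^ 3 + w ^ 5) (1 + w + w ^ 3 + w ^ 4) = R.vec (w ^ 3) (1 + w + w ^ 2 + w ^ 4) (w ^ 2) := by
    rw [hV, R.low_vec, hSV]
    refine vec_congr R ?_ ?_ ?_
    · ring
    · linear_combination ((1) * w) * hw + ((-1) * w + (-1) * w ^ 2 + (1) * w ^ 3 + (1) * w ^ 5) * h20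
    · linear_combination ((-2) * w + (-1) * w ^ 3) * hw + ((1) * w + (1) * w ^ 3 + (-1) * w ^ 5) * h20
  have e5 : mat V *ᵥ R.vec (w ^ 3) (1 + w + w ^ 2 + w ^ 4) (w ^ 2) = R.vec (w ^ 3) (1 + w ^ 3 + w ^ 5) (w + w ^ 2 + w ^ 4) := by
    rw [hV, R.low_vec, hSV]
    refine vec_congr R ?_ ?_ ?_
    · ring
    · linear_combination ((1) * w) * hw + ((1) * w ^ 4) * h20
    · linear_combination ((-1) + (-1) * w ^ 2) * hw + ((-1) * w + (-1) * w ^ 2 + (-2) * w ^ 4 + (-1) * w ^ 5) * h20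
  have e6 : mat U *ᵥ R.vec (w ^ 3) (1 + w ^ 3 + w ^ 5) (w + w ^ 2 + w ^ 4) = R.vec (w ^ 4) (1 + w + w ^ 2 + w ^ 3 + w ^ 4 + w ^ 5) (w + w ^ 2 + w ^ 4) := by
    rw [hU, R.up_vec, hSU]
    refine vec_congr R ?_ ?_ ?_
    · linear_combination ((1) + (1) * w + (1) * w ^ 3) * hw + ((-1) + (-1) * w + (-1) * w ^ 4) * h20
    · ring
    · ring
  have e7 : mat V *ᵥ R.vec (w ^ 4) (1 + w + w ^ 2 + w ^ 3 + w ^ 4 + w ^ 5) (w + w ^ 2 + w ^ 4) = R.vec (w ^ 4) (0) (w + w ^ 3 + w ^ 4) := by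
    rw [hV, R.low_vec, hSV]
    refine vec_congr R ?_ ?_ ?_
    · ring
    · linear_combination ((1) + (1) * w ^ 2) * hw + ((1) * w ^ 4 + (1) * w ^ 5) * h20
    · linear_combination ((-3) + (-1) * w + (-1) * w ^ 2 + (-1) * w ^ 3) * hw + ((1) + (1) * w + (-1) * w ^ 3 + (-1) * w ^ 4 + (-2) * w ^ 5) * h20
  have e8 : mat V *ᵥ R.vec (w ^ 4) (0) (w + w ^ 3 + w ^ 4) = R.vec (w ^ 4) (1 + w + w ^ 2 + w ^ 3 + w ^ 4 + w ^ 5) (w ^ 2 + w ^ 3) := by
    rw [hV, R.low_vec, hSV]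
    refine vec_congr R ?_ ?_ ?_
    · ring
    · linear_combination ((1) + (1) * w ^ 2) * hw + ((-1) + (-1) * w + (-1) * w ^ 2 + (-1) * w ^ 3) * h20
    · linear_combination ((1) * w) * hw + ((-1) * w ^ 2 + (1) * w ^ 4) * h20
  have e9 : mat V *ᵥ R.vec (w ^ 4) (1 + w + w ^ 2 + w ^ 3 + w ^ 4 + w ^ 5) (w ^ 2 + w ^ 3) = R.vec (w ^ 4) (0) (0) := by
    rw [hV, R.low_vec, hSV]
    refine vec_congr R ?_ ?_ ?_
    · ring
    · linear_combination ((1) + (1) * w ^ 2) * hw + ((1) * w ^ 4 + (1) * w ^ 5) * h20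
    · linear_combination ((-3) + (-1) * w + (-1) * w ^ 2 + (-1) * w ^ 3) * hw + ((1) + (1) * w + (-1) * w ^ 4 + (-2) * w ^ 5) * h20
  have hbe : mat (V * V * V * U * V * V * V * U * U * V) *ᵥ R.vec 1 0 0 = R.vec (w ^ 4) (0) (0) := by
    simp only [mul_mulVec]
    rw [e0, e1, e2, e3, e4, e5, e6, e7, e8, e9]
  have m0 : mat V *ᵥ R.vec (0) (1) (0) = R.vec (0) (1) (1 + w + w ^ 2 + w ^ 4) := by
    rw [hV, R.low_vec, hSV]
    refine vec_congr R ?_ ?_ ?_
    · ring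
    · ring
    · linear_combination 0 * hw + ((-1) + (-1) * w + (-1) * w ^ 2 + (-1) * w ^ 4) * h20
  have m1 : mat U *ᵥ R.vec (0) (1) (1 + w + w ^ 2 + w ^ 4) = R.vec (w + w ^ 4) (w + w ^ 2 + w ^ 4) (1 + w + w ^ 2 + w ^ 4) := by
    rw [hU, R.up_vec, hSU]
    refine vec_congr R ?_ ?_ ?_
    · linear_combination ((1) + (1) * w + (1) * w ^ 3) * hw + ((-1) + (-1) * w + (-1) * w ^ 4 + (1) * w ^ 5) * h20
    · linear_combination 0 * hw + ((1)) * h20
    · ring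
  have m2 : mat U *ᵥ R.vec (w + w ^ 4) (w + w ^ 2 + w ^ 4) (1 + w + w ^ 2 + w ^ 4) = R.vec (1 + w + w ^ 2 + w ^ 4) (1) (1 + w + w ^ 2 + w ^ 4) := by
    rw [hU, R.up_vec, hSU]
    refine vec_congr R ?_ ?_ ?_
    · linear_combination ((1) + (1) * w + (1) * w ^ 3) * hw + ((-1) + (-1) * w + (-1) * w ^ 2 + (-1) * w ^ 4 + (1) * w ^ 5) * h20
    · linear_combination 0 * hw + ((1) * w + (1) * w ^ 2 + (1) * w ^ 4) * h20
    · ring
  have m3 : mat V *ᵥ R.vec (1 + w + w ^ 2 + w ^ 4) (1) (1 + w + w ^ 2 + w ^ 4) = R.vec (1 + w + w ^ 2 + w ^ 4) (w ^ 3 + w ^ 4) (1 + w ^ 3 + w ^ 5) := by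
    rw [hV, R.low_vec, hSV]
    refine vec_congr R ?_ ?_ ?_
    · ring
    · linear_combination ((2) + (1) * w ^ 2) * hw + ((1) * w ^ 2 + (1) * w ^ 4 + (1) * w ^ 5) * h20
    · linear_combination ((1) * w) * hw + ((1) * w ^ 4) * h20
  have m4 : mat V *ᵥ R.vec (1 + w + w ^ 2 + w ^ 4) (w ^ 3 + w ^ 4) (1 + w ^ 3 + w ^ 5) = R.vec (1 + w + w ^ 2 + w ^ 4) (1) (1) := by
    rw [hV, R.low_vec, hSV]
    refine vec_congr R ?_ ?_ ?_
    · ring
    · linear_combination ((2) + (1) * w ^ 2) * hw + ((-1) + (1) * w ^ 2 + (1) * w ^ 3 + (2) * w ^ 4 + (1) * w ^ 5) * h20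
    · linear_combination ((-1) + (-1) * w ^ 2) * hw + ((1) + (1) * w + (1) * w ^ 2 + (1) * w ^ 3) * h20
  have m5 : mat V *ᵥ R.vec (1 + w + w ^ 2 + w ^ 4) (1) (1) = R.vec (1 + w + w ^ 2 + w ^ 4) (w ^ 3 + w ^ 4) (1 + w + w ^ 2 + w ^ 3 + w ^ 4 + w ^ 5) := by
    rw [hV, R.low_vec, hSV]
    refine vec_congr R ?_ ?_ ?_
    · ring
    · linear_combination ((2) + (1) * w ^ 2) * hw + ((1) * w ^ 2 + (1) * w ^ 4 + (1) * w ^ 5) * h20
    · linear_combination ((1) * w) * hw + ((-1) * w + (-1) * w ^ 2) * h20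
  have m6 : mat U *ᵥ R.vec (1 + w + w ^ 2 + w ^ 4) (w ^ 3 + w ^ 4) (1 + w + w ^ 2 + w ^ 3 + w ^ 4 + w ^ 5) = R.vec (1 + w + w ^ 4 + w ^ 5) (1 + w + w ^ 2 + w ^ 5) (1 + w + w ^ 2 + w ^ 3 + w ^ 4 + w ^ 5) := by
    rw [hU, R.up_vec, hSU]
    refine vec_congr R ?_ ?_ ?_
    · linear_combination ((2) + (1) * w + (1) * w ^ 2 + (1) * w ^ 3 + (1) * w ^ 4) * hw + ((-1) + (-1) * w + (-1) * w ^ 3 + (-1) * w ^ 4) * h20
    · linear_combination 0 * hw + ((1) * w ^ 3 + (1) * w ^ 4) * h20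
    · ring
  have m7 : mat V *ᵥ R.vec (1 + w + w ^ 4 + w ^ 5) (1 + w + w ^ 2 + w ^ 5) (1 + w + w ^ 2 + w ^ 3 + w ^ 4 + w ^ 5) = R.vec (1 + w + w ^ 4 + w ^ 5) (w ^ 2 + w ^ 3 + w ^ 4) (1 + w ^ 2) := by
    rw [hV, R.low_vec, hSV]
    refine vec_congr R ?_ ?_ ?_
    · ring
    · linear_combination ((2) + (1) * w + (1) * w ^ 2 + (1) * w ^ 3) * hw + ((-1) * w ^ 3 + (2) * w ^ 5) * h20
    · linear_combination ((-2) + (1) * w ^ 2 + (-1) * w ^ 3) * hw + ((1) + (1) * w + (-2) * w ^ 2 + (1) * w ^ 4) * h20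
  have m8 : mat V *ᵥ R.vec (1 + w + w ^ 4 + w ^ 5) (w ^ 2 + w ^ 3 + w ^ 4) (1 + w ^ 2) = R.vec (1 + w + w ^ 4 + w ^ 5) (1 + w + w ^ 2 + w ^ 5) (w + w ^ 3 + w ^ 4 + w ^ 5) := by
    rw [hV, R.low_vec, hSV]
    refine vec_congr R ?_ ?_ ?_
    · ring
    · linear_combination ((2) + (1) * w + (1) * w ^ 2 + (1) * w ^ 3) * hw + ((-1) + (-1) * w + (1) * w ^ 4 + (1) * w ^ 5) * h20
    · linear_combination ((-2)) * hw + ((2) + (1) * w + (-1) * w ^ 3 + (-1) * w ^ 4 + (-1) * w ^ 5) * h20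
  have m9 : mat V *ᵥ R.vec (1 + w + w ^ 4 + w ^ 5) (1 + w + w ^ 2 + w ^ 5) (w + w ^ 3 + w ^ 4 + w ^ 5) = R.vec (1 + w + w ^ 4 + w ^ 5) (w ^ 2 + w ^ 3 + w ^ 4) (0) := by
    rw [hV, R.low_vec, hSV]
    refine vec_congr R ?_ ?_ ?_
    · ring
    · linear_combination ((2) + (1) * w + (1) * w ^ 2 + (1) * w ^ 3) * hw + ((-1) * w ^ 3 + (2) * w ^ 5) * h20
    · linear_combination ((-2) + (1) * w ^ 2 + (-1) * w ^ 3) * hw + ((1) + (1) * w + (-2) * w ^ 2 + (1) * w ^ 4) * h20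
  have hbm : mat (V * V * V * U * V * V * V * U * U * V) *ᵥ R.vec 0 1 0 = R.vec (1 + w + w ^ 4 + w ^ 5) (w ^ 2 + w ^ 3 + w ^ 4) (0) := by
    simp only [mul_mulVec]
    rw [m0, m1, m2, m3, m4, m5, m6, m7, m8, m9]
  refine ⟨R, w + w ^ 5, 1 + w + w ^ 2 + w ^ 4, 1 + w ^ 3, hβ, hγ, hγ0, hδ, fun h => absurd h (by omega), ?_⟩
  refine R.generate (by omega) (w + w ^ 5) _ (1 + w ^ 3) hβ hγ hγ0 hδ (mul_mem (mul_mem (mul_mem (mul_mem (mul_mem (mul_mem (mul_mem (mul_mem (mul_mem hVm hVm) hVm) hUm) hVm) hVm) hVm) hUm) hUm) hVm) hbe hbm ?_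
  intro T hT
  rcases subfield_card T with h | ⟨d, hd2, hd, hQ2, hpT⟩
  · exact h
  exfalso
  set c : F := 1 + w ^ 3 + w ^ 4 + w ^ 5 with hcdef
  have hc : c ∈ T := by
    convert hT using 1
    simp only [hcdef, map_add, map_pow, map_one, hsw]; linear_combination ((15) + (25) * w + (25) * w ^ 2 + (16) * w ^ 3 + (5) * w ^ 4 + (-4) * w ^ 5 + (-11) * w ^ 6 + (-14) * w ^ 7 + (-11) * w ^ 8 + (-5) * w ^ 9 + (-1) * w ^ 10) * hw + ((-7) + (-20) * w + (-25) * w ^ 2 + (-20) * w ^ 3 + (-10) * w ^ 4) * h20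
  rw [hcard] at hd
  have hle : Nat.card T ^ 2 ≤ 64 := (Nat.pow_le_pow_right (by omega) hd2).trans (le_of_eq (by rw [← hd]; norm_num))
  have hQ : Nat.card T = 2 ∨ Nat.card T = 4 ∨ Nat.card T = 8 := by
    have h1 : Nat.card T ≤ 8 := by nlinarith
    have h2 : Nat.card T ∣ 2 ^ 6 := hd ▸ dvd_pow_self _ (by omega)
    interval_cases h : Nat.card T <;> revert h2 <;> decide
  have hc0 : c ≠ 0 := by intro h; rw [hcdef] at h; exact one_ne_zero (α := F) (by linear_combination ((1) * w ^ 3) * h + ((-1) + (-1) * w + (-1) * w ^ 2) * hw + ((1) + (1) * w + (1) * w ^ 2) * h20)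
  have := hpT c hc hc0
  rw [hcdef] at this
  rcases hQ with hQ | hQ | hQ <;> rw [hQ] at this <;> norm_num only at this
  · exact one_ne_zero (α := F) (by linear_combination ((1) * w ^ 2 + (1) * w ^ 5) * this + ((-1) + (-1) * w + (-1) * w ^ 2 + (-1) * w ^ 3 + (-1) * w ^ 4) * hw + ((1) + (1) * w + (1) * w ^ 2 + (1) * w ^ 3 + (1) * w ^ 4) * h20)
  · exact one_ne_zero (α := F) (by linear_combination ((1) * w + (1) * w ^ 2 + (1) * w ^ 3) * this + ((13) + (23) * w + (25) * w ^ 2 + (17) * w ^ 3 + (4) * w ^ 4 + (-8) * w ^ 5 + (-14) * w ^ 6 + (-18) * w ^ 7 + (-19) * w ^ 8 + (-16) * w ^ 9 + (-10) * w ^ 10 + (-4) * w ^ 11 + (-1) * w ^ 12) * hw + ((-6) + (-18) * w + (-24) * w ^ 2 + (-21) * w ^ 3 + (-12) * w ^ 4 + (-1) * w ^ 5) * h20)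
  · exact one_ne_zero (α := F) (by linear_combination ((1) * w + (1) * w ^ 3 + (1) * w ^ 4 + (1) * w ^ 5) * this + ((-2947) + (-5387) * w + (-5717) * w ^ 2 + (-4315) * w ^ 3 + (-1902) * w ^ 4 + (589) * w ^ 5 + (2344) * w ^ 6 + (3008) * w ^ 7 + (2646) * w ^ 8 + (1571) * w ^ 9 + (184) * w ^ 10 + (-1025) * w ^ 11 + (-1711) * w ^ 12 + (-1843) * w ^ 13 + (-1566) * w ^ 14 + (-1076) * w ^ 15 + (-564) * w ^ 16 + (-266) * w ^ 17 + (-319) * w ^ 18 + (-666) * w ^ 19 + (-1156) * w ^ 20 + (-1653) * w ^ 21 + (-2068) * w ^ 22 + (-2300) * w ^ 23 + (-2282) * w ^ 24 + (-2037) * w ^ 25 + (-1659) * w ^ 26 + (-1245) * w ^ 27 + (-852) * w ^ 28 + (-517) * w ^ 29 + (-267) * w ^ 30 + (-112) * w ^ 31 + (-36) * w ^ 32 + (-8) * w ^ 33 + (-1) * w ^ 34) * hw + ((1474) + (4167) * w + (5552) * w ^ 2 + (5016) * w ^ 3 + (3105) * w ^ 4 + (653) * w ^ 5) * h20)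

theorem generate_five (C : Conj F q) (h5 : q = 5) :
    ∃ u g : SU3, (IsNilpotent (mat u - 1) ∧ (mat u - 1) ^ (3 - 1) ≠ 0) ∧
      Subgroup.closure ({u, g * u * g⁻¹} : Set SU3) = ⊤ :=
  (goodPair_five C h5).exists_generate

theorem generate_eight (C : Conj F q) (h8 : q = 8) :
    ∃ u g : SU3, (IsNilpotent (mat u - 1) ∧ (mat u - 1) ^ (3 - 1) ≠ 0) ∧
      Subgroup.closure ({u, g * u * g⁻¹} : Set SU3) = ⊤ :=
  (goodPair_eight C h8).exists_generate

theorem goodPair (C : Conj F q) (h2 : q ≠ 2) : GoodPair C := by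
  by_cases h5 : q = 5
  · exact goodPair_five C h5
  by_cases h8 : q = 8
  · exact goodPair_eight C h8
  exact goodPair_generic C h2 h5 h8

end CfsgLib.UGen
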