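import Mathlib
import Cfsg.Agent.UGeom.Simple
import Cfsg.Agent.UGeom.Eichler

/-!
A frame of `F³` with a Hermitian form, and the two opposite groups of Eichler elements.
-/

set_option autoImplicit false

namespace CfsgLib.UGen

open Matrix CfsgLib.UGeom

variable {F : Type*} [Field F] [Fintype F] {q : ℕ}

local notation "V3" => (Fin 3 → F)
local notation "hh" => Cfsg.hermForm 3 F q
local notation "SU3" => Cfsg.SU 3 F q
local notation "mat" A:max => (((A : SU3) : Matrix.SpecialLinearGroup (Fin 3) F) : Matrix (Fin 3) (Fin 3) F)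

/-- Two isotropic vectors with product one and a unit vector orthogonal to both. -/
structure Frame (C : Conj F q) where
  /-- the first isotropic vector -/
  e : Fin 3 → F
  /-- the unit vector -/
  m : Fin 3 → F
  /-- the second isotropic vector -/
  f : Fin 3 → F
  ee : Cfsg.hermForm 3 F q e e = 0
  ff : Cfsg.hermForm 3 F q f f = 0
  fe : Cfsg.hermForm 3 F q f e = 1
  mm : Cfsg.hermForm 3 F q m m = 1
  me : Cfsg.hermForm 3 F q m e = 0
  mf : Cfsg.hermForm 3 F q m f = 0

variable {C : Conj F q} (R : Frame C)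

theorem Frame.ef : hh R.e R.f = 1 := by rw [← form_conj C, R.fe, map_one]
theorem Frame.em : hh R.e R.m = 0 := by rw [← form_conj C, R.me, map_zero]
theorem Frame.fm : hh R.f R.m = 0 := by rw [← form_conj C, R.mf, map_zero]

/-- The vector with given coordinates. -/
def Frame.vec (a b c : F) : V3 := a • R.e + b • R.m + c • R.f

theorem Frame.vec_e (a b c : F) : hh (R.vec a b c) R.e = c := by
  simp [Frame.vec, form_add_left, form_smul_left, R.ee, R.me, R.fe]

theorem Frame.vec_m (a b c : F) : hh (R.vec a b c) R.m = b := by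
  simp [Frame.vec, form_add_left, form_smul_left, R.em, R.mm, R.fm]

theorem Frame.vec_f (a b c : F) : hh (R.vec a b c) R.f = a := by
  simp [Frame.vec, form_add_left, form_smul_left, R.ef, R.mf, R.ff]

theorem Frame.linearIndependent : LinearIndependent F ![R.e, R.m, R.f] := by
  rw [Fintype.linearIndependent_iff]
  intro g hg
  have h : R.vec (g 0) (g 1) (g 2) = 0 := by
    rw [← hg, Fin.sum_univ_three]
    rfl
  have h0 := R.vec_f (g 0) (g 1) (g 2)
  have h1 := R.vec_m (g 0) (g 1) (g 2)
  have h2 := R.vec_e (g 0) (g 1) (g 2)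
  rw [h, form_zero_left] at h0 h1 h2
  intro i
  fin_cases i
  exacts [h0.symm, h1.symm, h2.symm]

theorem Frame.repr (x : V3) : x = R.vec (hh x R.f) (hh x R.m) (hh x R.e) := by
  let b := basisOfLinearIndependentOfCardEqFinrank R.linearIndependent (by simp)
  have hx := b.sum_repr x
  simp only [b, coe_basisOfLinearIndependentOfCardEqFinrank, Fin.sum_univ_three] at hx
  set c := (basisOfLinearIndependentOfCardEqFinrank R.linearIndependent (by simp)).repr x
  have hx' : x = R.vec (c 0) (c 1) (c 2) := hx.symm
  conv_rhs => rw [hx', R.vec_f, R.vec_m, R.vec_e]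
  exact hx'

theorem exists_frame (C : Conj F q) : Nonempty (Frame C) := by
  obtain ⟨u, r, hu, hr, hru⟩ := exists_iso_pair (n := 3) C le_rfl
  let f : V3 →ₗ[F] (Fin 2 → F) :=
    { toFun := fun x => ![hh x u, hh x r]
      map_add' := fun a b => by funext i; fin_cases i <;> simp [form_add_left]
      map_smul' := fun c a => by funext i; fin_cases i <;> simp [form_smul_left] }
  have hker : LinearMap.ker f ≠ ⊥ := by
    intro e
    have h1 := LinearMap.finrank_range_add_finrank_ker f
    rw [e, finrank_bot, add_zero, Module.finrank_fintype_fun_eq_card, Fintype.card_fin] at h1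
    have h2 := Submodule.finrank_le (LinearMap.range f)
    rw [Module.finrank_fintype_fun_eq_card, Fintype.card_fin] at h2
    omega
  obtain ⟨z, hz, hz0⟩ := Submodule.exists_mem_ne_zero_of_ne_bot hker
  have hzf := LinearMap.mem_ker.1 hz
  have hzu : hh z u = 0 := congrFun hzf 0
  have hzr : hh z r = 0 := congrFun hzf 1
  have hur : hh u r = 1 := by rw [← form_conj C, hru, map_one]
  have huz : hh u z = 0 := by rw [← form_conj C, hzu, map_zero]
  have hrz : hh r z = 0 := by rw [← form_conj C, hzr, map_zero]
  have hzz : hh z z ≠ 0 := by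
    intro h0
    have hli : LinearIndependent F ![u, z, r] := by
      rw [Fintype.linearIndependent_iff]
      intro g hg
      rw [Fin.sum_univ_three] at hg
      simp only [Matrix.cons_val_zero, Matrix.cons_val_one, Matrix.cons_val_two, Matrix.tail_cons,
        Matrix.head_cons] at hg
      have h1 := congrArg (fun x => hh x u) hg
      have h2 := congrArg (fun x => hh x r) hg
      simp only [form_add_left, form_smul_left, hu, hzu, hru, hur, hzr, hr, form_zero_left, mul_zero,
        mul_one, add_zero, zero_add] at h1 h2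
      rw [h1, h2, zero_smul, zero_smul, zero_add, add_zero, smul_eq_zero] at hg
      intro i
      fin_cases i
      exacts [h2, hg.resolve_right hz0, h1]
    refine hz0 (ext_form C fun x => ?_)
    rw [form_zero_left]
    let b := basisOfLinearIndependentOfCardEqFinrank hli (by simp)
    have hx := b.sum_repr x
    simp only [b, coe_basisOfLinearIndependentOfCardEqFinrank, Fin.sum_univ_three] at hx
    rw [← hx]
    simp [form_add_right C, form_smul_right C, hzu, hzr, h0]
  obtain ⟨c, -, hc⟩ := CfsgLib.Hermitian.exists_norm C.ne_id C.invol (inv_ne_zero hzz)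
    (by rw [map_inv₀, form_conj C])
  refine ⟨⟨u, c • z, r, hu, hr, hru, ?_, ?_, ?_⟩⟩
  · rw [form_smul_left, form_smul_right C, ← mul_assoc, mul_comm c, hc, inv_mul_cancel₀ hzz]
  · rw [form_smul_left, hzu, mul_zero]
  · rw [form_smul_left, hzr, mul_zero]

/-- The elements fixing `e`. -/
def Frame.up (z a : F) (h : a + C.σ a + z * C.σ z = 0) : SU3 :=
  eich C R.e (z • R.m) a R.ee (by rw [form_smul_left, R.me, mul_zero])
    (by rw [form_smul_left, form_smul_right C, R.mm, mul_one]; exact h)

/-- The elements fixing `f`. -/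
def Frame.low (z a : F) (h : a + C.σ a + z * C.σ z = 0) : SU3 :=
  eich C R.f (z • R.m) a R.ff (by rw [form_smul_left, R.mf, mul_zero])
    (by rw [form_smul_left, form_smul_right C, R.mm, mul_one]; exact h)

theorem Frame.up_vec (z a : F) (h : a + C.σ a + z * C.σ z = 0) (x y w : F) :
    mat (R.up z a h) *ᵥ R.vec x y w = R.vec (x + a * w - C.σ z * y) (y + z * w) w := by
  rw [Frame.up, eich_mulVec, R.vec_e, form_smul_right C, R.vec_m]
  simp only [Frame.vec]
  module

theorem Frame.low_vec (z a : F) (h : a + C.σ a + z * C.σ z = 0) (x y w : F) :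
    mat (R.low z a h) *ᵥ R.vec x y w = R.vec x (y + z * x) (w + a * x - C.σ z * y) := by
  rw [Frame.low, eich_mulVec, R.vec_f, form_smul_right C, R.vec_m]
  simp only [Frame.vec]
  module

theorem Frame.e_eq : R.e = R.vec 1 0 0 := by simp [Frame.vec]
theorem Frame.m_eq : R.m = R.vec 0 1 0 := by simp [Frame.vec]
theorem Frame.f_eq : R.f = R.vec 0 0 1 := by simp [Frame.vec]

theorem Frame.ext_vec {A B : SU3} (h : ∀ x y w, mat A *ᵥ R.vec x y w = mat B *ᵥ R.vec x y w) : A = B :=
  SU_ext fun v => by rw [R.repr v]; exact h _ _ _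

theorem mul_mulVec (A B : SU3) (v : V3) : mat (A * B) *ᵥ v = mat A *ᵥ (mat B *ᵥ v) := by
  rw [SU_coe_mul, Matrix.mulVec_mulVec]

theorem Frame.up_mul (z a z' a' : F) (h : a + C.σ a + z * C.σ z = 0) (h' : a' + C.σ a' + z' * C.σ z' = 0) :
    ∃ h'' : a + a' - C.σ z * z' + C.σ (a + a' - C.σ z * z') + (z + z') * C.σ (z + z') = 0,
      R.up z a h * R.up z' a' h' = R.up (z + z') (a + a' - C.σ z * z') h'' := by
  refine ⟨by simp only [map_add, map_sub, map_mul, C.invol]; linear_combination h + h', R.ext_vec fun x y w => ?_⟩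
  rw [mul_mulVec, R.up_vec, R.up_vec, R.up_vec]
  congr 1 <;> (try simp only [map_add]) <;> ring

theorem Frame.low_mul (z a z' a' : F) (h : a + C.σ a + z * C.σ z = 0) (h' : a' + C.σ a' + z' * C.σ z' = 0) :
    ∃ h'' : a + a' - C.σ z * z' + C.σ (a + a' - C.σ z * z') + (z + z') * C.σ (z + z') = 0,
      R.low z a h * R.low z' a' h' = R.low (z + z') (a + a' - C.σ z * z') h'' := by
  refine ⟨by simp only [map_add, map_sub, map_mul, C.invol]; linear_combination h + h', R.ext_vec fun x y w => ?_⟩
  rw [mul_mulVec, R.low_vec, R.low_vec, R.low_vec]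
  congr 1 <;> (try simp only [map_add]) <;> ring

theorem Frame.up_zero (h : (0 : F) + C.σ 0 + 0 * C.σ 0 = 0) : R.up 0 0 h = 1 := by
  refine R.ext_vec fun x y w => ?_
  rw [R.up_vec]
  simp [Matrix.one_mulVec]

end CfsgLib.UGen
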