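import Cfsg.Agent.UGen.Basic

/-!
When two opposite regular unipotent elements generate `SU₃`.
-/

set_option autoImplicit false

namespace CfsgLib.UGen

open Matrix CfsgLib.UGeom

variable {F : Type*} [Field F] [Fintype F] {q : ℕ}

local notation "V3" => (Fin 3 → F)
local notation "hh" => Cfsg.hermForm 3 F q
local notation "SU3" => Cfsg.SU 3 F q
local notation "mat" A:max => (((A : SU3) : Matrix.SpecialLinearGroup (Fin 3) F) : Matrix (Fin 3) (Fin 3) F)

variable {C : Conj F q} (R : Frame C)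

theorem Frame.form_vec (x y w x' y' w' : F) :
    hh (R.vec x y w) (R.vec x' y' w') = x * C.σ w' + y * C.σ y' + w * C.σ x' := by
  simp [Frame.vec, form_add_left, form_add_right C, form_smul_left, form_smul_right C, R.ee, R.ff,
    R.fe, R.ef, R.mm, R.me, R.em, R.mf, R.fm]
  ring

theorem Frame.smul_vec (s x y w : F) : s • R.vec x y w = R.vec (s * x) (s * y) (s * w) := by
  simp only [Frame.vec]; module

/-- A monomial element swapping the two isotropic lines. -/
theorem Frame.exists_swap {γ : F} (hγ : C.σ γ = γ) (hγ0 : γ ≠ 0) :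
    ∃ A : SU3, ∀ x y w, mat A *ᵥ R.vec x y w = R.vec (-γ⁻¹ * w) (-y) (-γ * x) := by
  let P : Matrix (Fin 3) (Fin 3) F := Matrix.of fun i j => ![R.e, R.m, R.f] j i
  have hP : ∀ c : V3, P *ᵥ c = R.vec (c 0) (c 1) (c 2) := fun c => by
    funext i
    simp [P, Matrix.mulVec, dotProduct, Fin.sum_univ_three, Frame.vec, mul_comm]
  have hPd : P.det ≠ 0 := by
    intro h
    obtain ⟨c, hc, hc0⟩ := Matrix.exists_mulVec_eq_zero_iff.2 h
    rw [hP] at hc0
    refine hc (funext fun i => ?_)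
    have h0 := R.vec_f (c 0) (c 1) (c 2)
    have h1 := R.vec_m (c 0) (c 1) (c 2)
    have h2 := R.vec_e (c 0) (c 1) (c 2)
    rw [hc0, form_zero_left] at h0 h1 h2
    fin_cases i
    exacts [h0.symm, h1.symm, h2.symm]
  let N : Matrix (Fin 3) (Fin 3) F := !![0, 0, -γ⁻¹; 0, -1, 0; -γ, 0, 0]
  let M : Matrix (Fin 3) (Fin 3) F := P * N * P⁻¹
  have hM : ∀ x y w, M *ᵥ R.vec x y w = R.vec (-γ⁻¹ * w) (-y) (-γ * x) := by
    intro x y w
    have e : R.vec x y w = P *ᵥ ![x, y, w] := by rw [hP]; rfl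
    rw [e, Matrix.mulVec_mulVec, show M * P = P * N by
      rw [Matrix.mul_assoc, Matrix.nonsing_inv_mul P (isUnit_iff_ne_zero.2 hPd), Matrix.mul_one],
      ← Matrix.mulVec_mulVec, hP]
    congr 1 <;> simp [N, Matrix.mulVec, dotProduct, Fin.sum_univ_three]
  have hdet : M.det = 1 := by
    show (P * N * P⁻¹).det = 1
    rw [Matrix.det_mul, Matrix.det_mul, Matrix.det_nonsing_inv, Ring.inverse_eq_inv', mul_comm P.det,
      mul_assoc, mul_inv_cancel₀ hPd, mul_one, Matrix.det_fin_three]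
    simp [N, hγ0]
  refine ⟨⟨⟨M, hdet⟩, fun u v => ?_⟩, hM⟩
  show hh (M *ᵥ u) (M *ᵥ v) = hh u v
  rw [R.repr u, R.repr v, hM, hM, R.form_vec, R.form_vec]
  simp only [map_neg, map_mul, map_inv₀, hγ]
  field_simp
  ring

theorem eich_comm (A : SU3) (v z : V3) (a : F) (hv : hh v v = 0) (hzv : hh z v = 0)
    (ha : a + C.σ a + hh z z = 0) (x : V3) :
    mat (A * eich C v z a hv hzv ha * A⁻¹) *ᵥ x =
      x + hh x (mat A *ᵥ v) • (mat A *ᵥ z) + (a * hh x (mat A *ᵥ v) - hh x (mat A *ᵥ z)) • (mat A *ᵥ v) := by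
  have h1 : ∀ t : V3, hh (mat A⁻¹ *ᵥ x) t = hh x (mat A *ᵥ t) := fun t => by
    rw [← SU_form A, SU_mulVec_inv]
  rw [mul_mulVec, mul_mulVec, eich_mulVec, Matrix.mulVec_add, Matrix.mulVec_add, Matrix.mulVec_smul,
    Matrix.mulVec_smul, SU_mulVec_inv, h1, h1]

/-- An element fixing the line of `e` moves the parameters by a scalar. -/
theorem Frame.conj_up {b : SU3} {lam k l : F} (hbe : mat b *ᵥ R.vec 1 0 0 = R.vec lam 0 0)
    (hbm : mat b *ᵥ R.vec 0 1 0 = R.vec k l 0) (z a : F) (h : a + C.σ a + z * C.σ z = 0) :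
    ∃ a' h', b * R.up z a h * b⁻¹ = R.up (l * C.σ lam * z) a' h' := by
  have hll : l * C.σ l = 1 := by
    have h1 := SU_form b (R.vec 0 1 0) (R.vec 0 1 0)
    rw [hbm, R.form_vec, R.form_vec] at h1
    simpa using h1
  refine ⟨C.σ lam * z * k + a * lam * C.σ lam - lam * C.σ (z * k), ?_, R.ext_vec fun x y w => ?_⟩
  · simp only [map_add, map_sub, map_mul, C.invol]
    linear_combination (lam * C.σ lam) * h + (lam * C.σ lam * z * C.σ z) * hll
  · have hz : mat b *ᵥ (z • R.m) = R.vec (z * k) (z * l) 0 := by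
      rw [R.m_eq, Matrix.mulVec_smul, hbm, R.smul_vec, mul_zero]
    have he : mat b *ᵥ R.e = R.vec lam 0 0 := by rw [R.e_eq, hbe]
    rw [Frame.up, eich_comm, hz, he, R.up_vec, R.form_vec, R.form_vec]
    simp only [Frame.vec, map_mul, map_zero, C.invol]
    module

theorem Frame.up_inv_mem {H : Subgroup SU3} {z a : F} {h : a + C.σ a + z * C.σ z = 0} (hu : R.up z a h ∈ H) :
    ∃ a' h', R.up (-z) a' h' ∈ H := by
  have h2 : C.σ a + C.σ (C.σ a) + (-z) * C.σ (-z) = 0 := by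
    rw [C.invol, map_neg]; linear_combination h
  refine ⟨C.σ a, h2, ?_⟩
  obtain ⟨h'', e⟩ := R.up_mul z a (-z) (C.σ a) h h2
  have h1 : R.up z a h * R.up (-z) (C.σ a) h2 = 1 := by
    refine R.ext_vec fun x y w => ?_
    rw [e, R.up_vec, Submonoid.coe_one] at *
    simp only [add_neg_cancel, map_zero, zero_mul, sub_zero, add_zero]
    rw [show a + C.σ a - C.σ z * -z = 0 by linear_combination h, zero_mul, add_zero]
    exact (Matrix.one_mulVec _).symm
  rw [eq_inv_of_mul_eq_one_right h1]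
  exact inv_mem hu

theorem exists_trace_form (C : Conj F q) {c : F} (hc : c + C.σ c = 0) : ∃ t : F, t - C.σ t = c := by
  obtain ⟨τ, hτ⟩ := exists_trace_one C
  refine ⟨c * τ, ?_⟩
  rw [map_mul]
  linear_combination c * hτ - C.σ τ * hc

/-- Two opposite regular unipotent elements are conjugate. -/
theorem Frame.of_closure {β γ δ : F} (hβ : β + C.σ β + 1 * C.σ 1 = 0) (hγ : C.σ γ = γ)
    (hγ0 : γ ≠ 0) (hδ : δ + C.σ δ + γ * C.σ γ = 0)
    (htop : Subgroup.closure ({R.up 1 β hβ, R.low γ δ hδ} : Set SU3) = ⊤) :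
    ∃ u g : SU3, (IsNilpotent (mat u - 1) ∧ (mat u - 1) ^ (3 - 1) ≠ 0) ∧
      Subgroup.closure ({u, g * u * g⁻¹} : Set SU3) = ⊤ := by
  set u := R.up 1 β hβ with hu
  set v := R.low γ δ hδ with hv
  -- conjugacy
  obtain ⟨g, hg⟩ : ∃ g : SU3, g * u * g⁻¹ = v := by
    obtain ⟨A, hA⟩ := R.exists_swap hγ hγ0
    have hd : γ ^ 2 * β + C.σ (γ ^ 2 * β) + γ * C.σ γ = 0 := by
      rw [map_one, mul_one] at hβ
      rw [map_mul, map_pow, hγ]
      linear_combination γ ^ 2 * hβ
    have h1 : A * u * A⁻¹ = R.low γ (γ ^ 2 * β) hd := by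
      rw [mul_inv_eq_iff_eq_mul]
      refine R.ext_vec fun x y w => ?_
      rw [mul_mulVec, mul_mulVec, hu, R.up_vec, hA, hA, R.low_vec, map_one, hγ]
      congr 1
      · field_simp; ring
      · field_simp; ring
    obtain ⟨t, ht⟩ := exists_trace_form C (c := (δ - γ ^ 2 * β) / γ) (by
      rw [map_div₀, hγ, ← add_div]
      rw [map_sub, show δ - γ ^ 2 * β + (C.σ δ - C.σ (γ ^ 2 * β)) = 0 by linear_combination hδ - hd, zero_div])
    rw [eq_div_iff hγ0] at ht
    obtain ⟨τ, hτ⟩ := exists_trace_one C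
    have hM : -(t * C.σ t * τ) + C.σ (-(t * C.σ t * τ)) + t * C.σ t = 0 := by
      simp only [map_neg, map_mul, C.invol]
      linear_combination -(t * C.σ t) * hτ
    refine ⟨R.low t _ hM * A, ?_⟩
    rw [show R.low t _ hM * A * u * (R.low t _ hM * A)⁻¹ = R.low t _ hM * (A * u * A⁻¹) * (R.low t _ hM)⁻¹ by group,
      h1, mul_inv_eq_iff_eq_mul]
    refine R.ext_vec fun x y w => ?_
    rw [hv, mul_mulVec, mul_mulVec, R.low_vec, R.low_vec, R.low_vec, R.low_vec, hγ]
    congr 1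
    · ring
    · linear_combination x * ht
  refine ⟨u, g, ⟨?_, ?_⟩, ?_⟩
  · refine ⟨3, Matrix.ext_iff_mulVec.2 fun x => ?_⟩
    have hN : ∀ x y w, (mat u - 1) *ᵥ R.vec x y w = R.vec (β * w - y) w 0 := fun x y w => by
      rw [Matrix.sub_mulVec, Matrix.one_mulVec, hu, R.up_vec]
      simp only [Frame.vec, map_one]
      module
    rw [R.repr x, pow_succ, pow_two, ← Matrix.mulVec_mulVec, ← Matrix.mulVec_mulVec, Matrix.zero_mulVec,
      hN, hN, hN]
    simp [Frame.vec]
  · intro h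
    have h1 := congrArg (fun M : Matrix (Fin 3) (Fin 3) F => M *ᵥ R.f) h
    simp only [show (3 - 1 : ℕ) = 2 from rfl, pow_two, ← Matrix.mulVec_mulVec, Matrix.zero_mulVec] at h1
    have h2 : (mat u - 1) *ᵥ R.f = R.vec β 1 0 := by
      rw [Matrix.sub_mulVec, Matrix.one_mulVec, hu, R.f_eq, R.up_vec]
      simp only [Frame.vec, map_one]
      module
    have h3 : (mat u - 1) *ᵥ R.vec β 1 0 = R.vec (-1) 0 0 := by
      rw [Matrix.sub_mulVec, Matrix.one_mulVec, hu, R.up_vec]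
      simp only [Frame.vec, map_one]
      module
    rw [h2, h3] at h1
    have h4 := R.vec_f (-1 : F) 0 0
    rw [h1, form_zero_left] at h4
    exact neg_ne_zero.2 (one_ne_zero (α := F)) h4.symm
  rw [hg]
  exact htop

/-- The criterion. -/
theorem Frame.generate (hq : q ≠ 2) (β γ δ : F) (hβ : β + C.σ β + 1 * C.σ 1 = 0) (hγ : C.σ γ = γ)
    (hγ0 : γ ≠ 0) (hδ : δ + C.σ δ + γ * C.σ γ = 0) {b : SU3}
    (hb : b ∈ Subgroup.closure ({R.up 1 β hβ, R.low γ δ hδ} : Set SU3)) {lam k l : F}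
    (hbe : mat b *ᵥ R.vec 1 0 0 = R.vec lam 0 0) (hbm : mat b *ᵥ R.vec 0 1 0 = R.vec k l 0)
    (hgen : ∀ T : Subfield F, l * C.σ lam ∈ T → T = ⊤) :
    Subgroup.closure ({R.up 1 β hβ, R.low γ δ hδ} : Set SU3) = ⊤ := by
  set u := R.up 1 β hβ with hu
  set v := R.low γ δ hδ with hv
  set H := Subgroup.closure ({u, v} : Set SU3) with hH
  have huH : u ∈ H := Subgroup.subset_closure (by simp)
  have hvH : v ∈ H := Subgroup.subset_closure (by simp)
  -- the parameters occurring in `H`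
  let S : AddSubgroup F :=
    { carrier := {z | ∃ a h, R.up z a h ∈ H}
      zero_mem' := ⟨0, by simp, by rw [R.up_zero]; exact one_mem _⟩
      add_mem' := by
        rintro z z' ⟨a, h, hz⟩ ⟨a', h', hz'⟩
        obtain ⟨h'', e⟩ := R.up_mul z a z' a' h h'
        exact ⟨_, h'', e ▸ mul_mem hz hz'⟩
      neg_mem' := by rintro z ⟨a, h, hz⟩; exact R.up_inv_mem hz }
  have h1S : (1 : F) ∈ S := ⟨β, hβ, huH⟩
  let T : Subfield F :=
    { carrier := {x | ∀ z ∈ S, x * z ∈ S}
      mul_mem' := fun {x y} hx hy z hz => by rw [mul_assoc]; exact hx _ (hy z hz)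
      one_mem' := fun z hz => by rwa [one_mul]
      add_mem' := fun {x y} hx hy z hz => by rw [add_mul]; exact S.add_mem (hx z hz) (hy z hz)
      zero_mem' := fun z hz => by rw [zero_mul]; exact S.zero_mem
      neg_mem' := fun {x} hx z hz => by rw [neg_mul]; exact S.neg_mem (hx z hz)
      inv_mem' := fun x hx => by
        rcases eq_or_ne x 0 with rfl | hx0
        · rw [_root_.inv_zero]; exact hx
        have h2 : ∀ n : ℕ, ∀ z ∈ S, x ^ n * z ∈ S := fun n => by
          induction n with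
          | zero => intro z hz; rwa [pow_zero, one_mul]
          | succ n ih => intro z hz; rw [pow_succ, mul_assoc]; exact ih _ (hx z hz)
        have h3 : x ^ (Fintype.card F - 2) = x⁻¹ := by
          refine eq_inv_of_mul_eq_one_left ?_
          rw [← pow_succ, show Fintype.card F - 2 + 1 = Fintype.card F - 1 by
            have := Fintype.one_lt_card (α := F); omega]
          exact FiniteField.pow_card_sub_one_eq_one x hx0
        intro z hz
        rw [← h3]
        exact h2 _ z hz }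
  have hT : T = ⊤ := hgen T fun z hz' => by
    obtain ⟨a, h, hz⟩ := hz'
    obtain ⟨a', h', e⟩ := R.conj_up hbe hbm z a h
    exact ⟨a', h', by rw [← e]; exact mul_mem (mul_mem hb hz) (inv_mem hb)⟩
  have hall : ∀ z, ∃ a h, R.up z a h ∈ H := fun z => by
    have h1 : z ∈ T := hT ▸ Subfield.mem_top z
    have h2 : z * 1 ∈ S := h1 1 h1S
    rw [mul_one] at h2
    exact h2
  -- the centre of the unipotent group
  have hcen : ∀ (c : F) (hc : c + C.σ c + 0 * C.σ 0 = 0), R.up 0 c hc ∈ H := by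
    intro c hc
    have hc' : c + C.σ c = 0 := by simpa using hc
    obtain ⟨t, ht⟩ := exists_trace_form C hc'
    obtain ⟨a, h, hz⟩ := hall t
    obtain ⟨h1, e1⟩ := R.up_mul t a 1 β h hβ
    obtain ⟨h2, e2⟩ := R.up_mul 1 β t a hβ h
    obtain ⟨h3, e3⟩ := R.up_mul 0 c (1 + t) (β + a - C.σ 1 * t) hc h2
    have e : R.up 0 c hc = R.up t a h * u * (u * R.up t a h)⁻¹ := by
      rw [eq_mul_inv_iff_mul_eq, hu, e1, e2, e3]
      refine R.ext_vec fun x y w => ?_
      rw [R.up_vec, R.up_vec]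
      congr 1 <;> (try simp only [map_zero, map_one, map_add])
      · linear_combination (-w) * ht
      · ring
    rw [e]
    exact mul_mem (mul_mem hz huH) (inv_mem (mul_mem huH hz))
  have hup : ∀ z a h, R.up z a h ∈ H := by
    intro z a h
    obtain ⟨a0, h0, hz⟩ := hall z
    have hc : a - a0 + C.σ (a - a0) + 0 * C.σ 0 = 0 := by
      rw [map_sub, map_zero]; linear_combination h - h0
    obtain ⟨h', e⟩ := R.up_mul z a0 0 (a - a0) h0 hc
    have e2 : R.up z a h = R.up z a0 h0 * R.up 0 (a - a0) hc := by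
      rw [e]
      refine R.ext_vec fun x y w => ?_
      rw [R.up_vec, R.up_vec]
      congr 1 <;> simp
    rw [e2]
    exact mul_mem hz (hcen _ hc)
  -- all transvections
  have hte : ∀ (c : F) (hc : c + C.σ c = 0), utv C R.e c R.ee hc ∈ H := by
    intro c hc
    have e : utv C R.e c R.ee hc = R.up 0 c (by simpa using hc) := by
      refine R.ext_vec fun x y w => ?_
      rw [utv_mulVec, R.up_vec, R.vec_e]
      simp only [Frame.vec, map_zero]
      module
    rw [e]
    exact hup _ _ _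
  have hconj : ∀ (g : SU3), g ∈ H → ∀ (w : V3) (hw : hh w w = 0),
      (∀ (c : F) (hc : c + C.σ c = 0), utv C w c hw hc ∈ H) →
      ∀ (c : F) (hc : c + C.σ c = 0), utv C (mat g *ᵥ w) c (by rw [SU_form g, hw]) hc ∈ H := by
    intro g hg' w hw hall' c hc
    rw [← utv_conj C g w c hw hc]
    exact mul_mem (mul_mem hg' (hall' c hc)) (inv_mem hg')
  have hscale : ∀ (s : F) (_ : s ≠ 0) (w : V3) (hw : hh w w = 0) (hsw : hh (s • w) (s • w) = 0),
      (∀ (c : F) (hc : c + C.σ c = 0), utv C w c hw hc ∈ H) →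
      ∀ (c : F) (hc : c + C.σ c = 0), utv C (s • w) c hsw hc ∈ H := by
    intro s _ w hw hsw hall' c hc
    rw [utv_smul C s w c hw hc]
    exact hall' _ _
  have hδ0 : δ ≠ 0 := by
    intro h0
    rw [h0, map_zero, hγ, zero_add, zero_add, mul_eq_zero] at hδ
    exact hγ0 (hδ.elim id id)
  have hve : mat v *ᵥ R.e = R.vec 1 γ δ := by
    rw [hv, R.e_eq, R.low_vec]
    simp
  have hx0 : δ⁻¹ + C.σ δ⁻¹ + (γ / δ) * C.σ (γ / δ) = 0 := by
    have : C.σ δ ≠ 0 := (map_ne_zero C.σ).2 hδ0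
    rw [map_inv₀, map_div₀]
    field_simp
    linear_combination hδ
  have htf : ∀ (c : F) (hc : c + C.σ c = 0), utv C R.f c R.ff hc ∈ H := by
    intro c hc
    have hf : R.f = δ⁻¹ • (mat ((R.up (γ / δ) δ⁻¹ hx0)⁻¹ * v) *ᵥ R.e) := by
      rw [mul_mulVec, hve, ← Matrix.mulVec_smul, R.smul_vec]
      have e1 : mat (R.up (γ / δ) δ⁻¹ hx0) *ᵥ R.f = R.vec (δ⁻¹ * 1) (δ⁻¹ * γ) (δ⁻¹ * δ) := by
        rw [R.f_eq, R.up_vec, inv_mul_cancel₀ hδ0]
        congr 1 <;> field_simp <;> ring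
      rw [← e1, SU_inv_mulVec]
    have key := hscale δ⁻¹ (inv_ne_zero hδ0) _ (by rw [SU_form, R.ee]) (by rw [← hf, R.ff])
      (hconj _ (mul_mem (inv_mem (hup _ _ _)) hvH) R.e R.ee hte) c hc
    convert key using 2
  refine eq_top_of_utv C le_rfl (fun h => hq h.2) H fun w c hw hc => ?_
  obtain ⟨x, y, κ, rfl⟩ : ∃ x y κ, w = R.vec x y κ := ⟨_, _, _, R.repr w⟩
  rcases eq_or_ne κ 0 with rfl | hκ
  · rw [R.form_vec, map_zero, mul_zero, zero_mul, zero_add, add_zero, mul_eq_zero] at hw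
    have hy : y = 0 := hw.elim id (map_eq_zero C.σ).1
    subst hy
    rcases eq_or_ne x 0 with rfl | hx
    · have : R.vec (0 : F) 0 0 = (0 : F) • R.e := by simp [Frame.vec]
      convert (one_mem H) using 1
      refine R.ext_vec fun a b c' => ?_
      rw [utv_mulVec, this, zero_smul, smul_zero, add_zero, Submonoid.coe_one] at *
      exact (Matrix.one_mulVec _).symm
    · have e : R.vec x 0 0 = x • R.e := by simp [Frame.vec]
      have key := hscale x hx R.e R.ee (by rw [← e, R.form_vec]; simp) hte c hc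
      convert key using 2
  · have hσκ : C.σ κ ≠ 0 := (map_ne_zero C.σ).2 hκ
    rw [R.form_vec] at hw
    have hh' : x / κ + C.σ (x / κ) + (y / κ) * C.σ (y / κ) = 0 := by
      rw [map_div₀, map_div₀]
      field_simp
      linear_combination hw
    have e : R.vec x y κ = κ • (mat (R.up (y / κ) (x / κ) hh') *ᵥ R.f) := by
      rw [R.f_eq, R.up_vec, R.smul_vec]
      congr 1 <;> field_simp <;> ring
    have key := hscale κ hκ _ (by rw [SU_form, R.ff]) (by rw [← e, R.form_vec]; exact hw)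
      (hconj _ (hup _ _ _) R.f R.ff htf) c hc
    convert key using 2

/-- There is a pair of opposite regular unipotent elements generating `SU₃`. -/
def GoodPair (C : Conj F q) : Prop :=
  ∃ (R : Frame C) (β γ δ : F) (hβ : β + C.σ β + 1 * C.σ 1 = 0) (_ : C.σ γ = γ) (_ : γ ≠ 0)
    (hδ : δ + C.σ δ + γ * C.σ γ = 0), (q = 3 → δ / γ ^ 2 ≠ β) ∧
    Subgroup.closure ({R.up 1 β hβ, R.low γ δ hδ} : Set (Cfsg.SU 3 F q)) = ⊤

theorem GoodPair.exists_generate {C : Conj F q} (h : GoodPair C) :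
    ∃ u g : SU3, (IsNilpotent (mat u - 1) ∧ (mat u - 1) ^ (3 - 1) ≠ 0) ∧
      Subgroup.closure ({u, g * u * g⁻¹} : Set SU3) = ⊤ := by
  obtain ⟨R, β, γ, δ, hβ, hγ, hγ0, hδ, -, h⟩ := h
  exact R.of_closure hβ hγ hγ0 hδ h

end CfsgLib.UGen
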