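import Cfsg.Agent.UGen.Criterion

/-!
Generation of `SU₃(q)` by two regular unipotent elements, `q ∉ {2, 5, 8}`.
-/

set_option autoImplicit false

namespace CfsgLib.UGen

open Matrix CfsgLib.UGeom

variable {F : Type*} [Field F] [Fintype F] {q : ℕ}

local notation "SU3" => Cfsg.SU 3 F q
local notation "mat" A:max => (((A : SU3) : Matrix.SpecialLinearGroup (Fin 3) F) : Matrix (Fin 3) (Fin 3) F)

/-- A subfield is everything or has at most the square root as many elements. -/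
theorem subfield_card (T : Subfield F) :
    T = ⊤ ∨ ∃ d, 2 ≤ d ∧ Fintype.card F = Nat.card T ^ d ∧ 2 ≤ Nat.card T ∧
      ∀ x ∈ T, x ≠ 0 → x ^ (Nat.card T - 1) = 1 := by
  classical
  have hd : Fintype.card F = Nat.card T ^ Module.finrank T F := by
    rw [Nat.card_eq_fintype_card]; exact Module.card_eq_pow_finrank
  have h2 : 2 ≤ Nat.card T := Finite.one_lt_card
  have h1 : 1 ≤ Module.finrank T F := Module.finrank_pos
  rcases Nat.lt_or_ge (Module.finrank T F) 2 with h | h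
  · left
    rw [show Module.finrank T F = 1 by omega, pow_one] at hd
    refine SetLike.coe_injective ?_
    rw [Subfield.coe_top]
    refine Set.eq_of_subset_of_ncard_le (Set.subset_univ _) ?_
    rw [Set.ncard_univ, Nat.card_eq_fintype_card, hd]
    exact le_of_eq (Nat.card_coe_set_eq _)
  · refine Or.inr ⟨_, h, hd, h2, fun x hx hx0 => ?_⟩
    have h3 := FiniteField.pow_card_sub_one_eq_one (⟨x, hx⟩ : T) (fun e => hx0 (congrArg Subtype.val e))
    rw [← Nat.card_eq_fintype_card] at h3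
    simpa using congrArg Subtype.val h3

theorem goodPair_generic (C : Conj F q) (h2 : q ≠ 2) (h5 : q ≠ 5) (h8 : q ≠ 8) :
    GoodPair C := by
  obtain ⟨R⟩ := exists_frame C
  obtain ⟨ζ, hζ⟩ := IsCyclic.exists_generator (α := Fˣ)
  have hq := C.two_le
  have hord : orderOf ζ = (q + 1) * (q - 1) := by
    rw [orderOf_eq_card_of_forall_mem_zpowers hζ, Nat.card_units, Nat.card_eq_fintype_card, C.card,
      ← Nat.sq_sub_sq, one_pow]
  set ru : Fˣ := ζ ^ (q - 1) with hru
  have hr_ord : orderOf ru = q + 1 := by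
    rw [hru, orderOf_pow, hord, Nat.gcd_mul_left_left]
    exact Nat.mul_div_cancel _ (by omega)
  set r : F := (ru : F) with hr
  have hr0 : r ≠ 0 := ru.ne_zero
  have hpow : ∀ k : ℕ, r ^ k = 1 → q + 1 ∣ k := fun k hk => by
    rw [← hr_ord]
    exact orderOf_dvd_of_pow_eq_one (Units.ext (by simpa using hk))
  have hσr : C.σ r = r⁻¹ := by
    refine eq_inv_of_mul_eq_one_left ?_
    rw [C.pow, ← pow_succ, hr, ← Units.val_pow_eq_pow_val, ← hr_ord, pow_orderOf_eq_one, Units.val_one]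
  have h1r : 1 + r ≠ 0 := by
    intro h
    have h' : r ^ 2 = 1 := by linear_combination (r - 1) * h
    have := Nat.le_of_dvd two_pos (hpow 2 h')
    omega
  have h1r' : r + 1 ≠ 0 := by rwa [add_comm]
  set γ : F := (1 + r) ^ 2 / r with hγdef
  set δ : F := -((1 + r) ^ 3 / r) with hδdef
  set β : F := -((2 * r ^ 2 + r + 1) / (1 + r) ^ 3) with hβdef
  have hσ1 : C.σ (1 + r) = (1 + r) / r := by
    rw [map_add, map_one, hσr]; field_simp; ring
  have hγ : C.σ γ = γ := by
    rw [hγdef, map_div₀, map_pow, hσ1, hσr]; field_simp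
  have hγ0 : γ ≠ 0 := div_ne_zero (pow_ne_zero _ h1r) hr0
  have hδ : δ + C.σ δ + γ * C.σ γ = 0 := by
    rw [hγ, hδdef, map_neg, map_div₀, map_pow, hσ1, hσr, hγdef]
    field_simp
    ring
  have hβ : β + C.σ β + 1 * C.σ 1 = 0 := by
    rw [hβdef, map_neg, map_div₀, map_pow, hσ1]
    simp only [map_add, map_mul, map_pow, map_ofNat, map_one, hσr]
    field_simp
    ring
  have hb : R.low γ δ hδ * R.up 1 β hβ * R.low γ δ hδ ∈
      Subgroup.closure ({R.up 1 β hβ, R.low γ δ hδ} : Set SU3) :=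
    mul_mem (mul_mem (Subgroup.subset_closure (by simp)) (Subgroup.subset_closure (by simp)))
      (Subgroup.subset_closure (by simp))
  refine ⟨R, β, γ, δ, hβ, hγ, hγ0, hδ, ?_, ?_⟩
  · intro h3 h
    have h31 : r ^ 3 = 1 := by
      rw [hδdef, hγdef, hβdef] at h
      field_simp at h
      linear_combination -h
    have := Nat.le_of_dvd (by norm_num) (hpow 3 h31)
    omega
  refine R.generate h2 β γ δ hβ hγ hγ0 hδ hb (lam := r) (k := -(1 + γ * β)) (l := (r ^ 2)⁻¹) ?_ ?_ ?_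
  · rw [mul_mulVec, mul_mulVec, R.low_vec, R.up_vec, R.low_vec, map_one, hγ, hγdef, hδdef, hβdef]
    congr 1 <;> field_simp <;> ring
  · rw [mul_mulVec, mul_mulVec, R.low_vec, R.up_vec, R.low_vec, map_one, hγ, hγdef, hδdef, hβdef]
    congr 1 <;> field_simp <;> ring
  intro T hT
  rcases subfield_card T with h | ⟨d, hd2, hd, hQ2, hpT⟩
  · exact h
  exfalso
  set Q := Nat.card T
  have hc : r ^ 3 ∈ T := by
    have := T.inv_mem hT
    rwa [hσr, mul_inv, inv_inv, inv_inv, ← pow_succ] at this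
  have hc1 := hpT _ hc (pow_ne_zero _ hr0)
  rw [← pow_mul] at hc1
  have hle := Nat.le_of_dvd (by omega) (hpow _ hc1)
  rw [C.card] at hd
  rcases Nat.lt_or_ge d 3 with h3 | h3
  · have hdd : d = 2 := by omega
    rw [hdd] at hd
    have hqQ : q = Q := Nat.pow_left_injective two_ne_zero hd
    rw [← hqQ] at hc1
    have h6 : r ^ 6 = 1 := by
      have hq1 : r ^ (q + 1) = 1 := by
        rw [hr, ← Units.val_pow_eq_pow_val, ← hr_ord, pow_orderOf_eq_one, Units.val_one]
      have : r ^ (3 * (q + 1)) = 1 := by rw [mul_comm, pow_mul, hq1, one_pow]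
      rwa [show 3 * (q + 1) = 3 * (q - 1) + 6 by omega, pow_add, hc1, one_mul] at this
    have h6' := hpow 6 h6
    have := Nat.le_of_dvd (by omega) h6'
    obtain ⟨k, hk⟩ := h6'
    have : q = 2 ∨ q = 3 ∨ q = 4 ∨ q = 5 := by omega
    rcases this with h | h | h | h <;> rw [h] at hk <;> omega
  · have hQ3 : Q ^ 3 ≤ q ^ 2 := hd ▸ Nat.pow_le_pow_right (by omega) h3
    have h4 : (q + 4) ^ 3 ≤ 27 * Q ^ 3 := by
      calc (q + 4) ^ 3 ≤ (3 * Q) ^ 3 := Nat.pow_le_pow_left (by omega) 3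
        _ = 27 * Q ^ 3 := by ring
    have h5 : ((q : ℤ) - 8) ^ 2 * ((q : ℤ) + 1) ≤ 0 := by
      have : ((q : ℤ) + 4) ^ 3 ≤ 27 * (q : ℤ) ^ 2 := by exact_mod_cast h4.trans (Nat.mul_le_mul_left 27 hQ3)
      linarith
    have h6 : (1 : ℤ) ≤ ((q : ℤ) - 8) ^ 2 := by
      have : (q : ℤ) - 8 ≠ 0 := by omega
      have : 0 < ((q : ℤ) - 8) ^ 2 := by positivity
      omega
    nlinarith

theorem generate_generic (C : Conj F q) (h2 : q ≠ 2) (h5 : q ≠ 5) (h8 : q ≠ 8) :
    ∃ u g : SU3, (IsNilpotent (mat u - 1) ∧ (mat u - 1) ^ (3 - 1) ≠ 0) ∧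
      Subgroup.closure ({u, g * u * g⁻¹} : Set SU3) = ⊤ :=
  (goodPair_generic C h2 h5 h8).exists_generate

end CfsgLib.UGen
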